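import Mathlib
import Cfsg.Agent.Lib.Helper78.S4415.Defs

/-!
# S4415, package [EXT] (the extraspecial case): interface of the sub-packages

Only definitions and package statements (`Prop`s).  The quaternion model: `H = ℍ[F_3]`
(basis `1, i, j, k`, `i² = j² = -1`, `i j = k = - j i`), `V ≃ H` with `x ↦ L_i`, `y ↦ L_j`.
-/

set_option autoImplicit false

namespace Cfsg.Agent.Lib.Helper65.S4415

open Cfsg.Agent.Lib.Helper78.S4415

universe u v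

/-- the quaternion algebra over `F_3` (81 elements) -/
abbrev H : Type := Quaternion (ZMod 3)

/-- `i` -/
def qi : H := ⟨0, 1, 0, 0⟩
/-- `j` -/
def qj : H := ⟨0, 0, 1, 0⟩
/-- `k` -/
def qk : H := ⟨0, 0, 0, 1⟩

/-- membership in the quaternion group `{±1, ±i, ±j, ±k}` -/
def Q8 (p : H) : Prop :=
  p = 1 ∨ p = -1 ∨ p = qi ∨ p = -qi ∨ p = qj ∨ p = -qj ∨ p = qk ∨ p = -qk

/-- `g` acts on the model as `h ↦ α * h * γ` -/
def LR {G : Type u} [Group G] {V : Type v} [AddCommGroup V] [Module (ZMod 3) V]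
    (ρ : Representation (ZMod 3) G V) (φ : V ≃ₗ[ZMod 3] H) (g : G) (α γ : H) : Prop :=
  ∀ v : V, φ (ρ g v) = α * φ v * γ

/-- the accumulated context: setting of [EXT], the elements `x, y` of (X1) and the model `φ` -/
structure Ctx {G : Type u} [Group G] [Finite G] {V : Type v} [AddCommGroup V]
    [Module (ZMod 3) V] [Finite V]
    (ρ : Representation (ZMod 3) G V) (R : Subgroup G) (b : G) (Q : Subgroup G)
    (N : Subgroup G) (z x y : G) (φ : V ≃ₗ[ZMod 3] H) : Prop where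
  setup : Setup ρ R b Q
  frame : Frame ρ b Q
  NR : N ≤ R
  Nnormal : N.Normal
  extra : ExtraType ρ N z b
  zc : ∀ g : G, z * g = g * z
  zz : z * z = 1
  xN : x ∈ N
  yN : y ∈ N
  xx : x * x = z
  yy : y * y = z
  yx : y * x = z * x * y
  bx : b * x * b⁻¹ = y
  bY : b * y * b⁻¹ = x * y ∨ b * y * b⁻¹ = z * x * y
  mx : ∀ v : V, φ (ρ x v) = qi * φ v
  my : ∀ v : V, φ (ρ y v) = qj * φ v

/-- (X6): `b` acts as `h ↦ β₁ h β₂` with `β₁³ = β₂³ = 1`, `β₂ ≠ 1` -/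
def BFacts {G : Type u} [Group G] {V : Type v} [AddCommGroup V] [Module (ZMod 3) V]
    (ρ : Representation (ZMod 3) G V) (φ : V ≃ₗ[ZMod 3] H) (b : G) : Prop :=
  ∃ β₁ β₂ : H, LR ρ φ b β₁ β₂ ∧ β₁ * β₁ * β₁ = 1 ∧ β₂ * β₂ * β₂ = 1 ∧ β₂ ≠ 1

/-- every element of `K` acts as `h ↦ p h γ` with `p, γ ∈ Q8` -/
def QFacts {G : Type u} [Group G] {V : Type v} [AddCommGroup V] [Module (ZMod 3) V]
    (ρ : Representation (ZMod 3) G V) (φ : V ≃ₗ[ZMod 3] H) (K : Subgroup G) : Prop :=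
  ∀ n ∈ K, ∃ p γ : H, Q8 p ∧ Q8 γ ∧ LR ρ φ n p γ

/-- every element of `K` acts as `h ↦ α h γ` with units `α, γ` -/
def UFacts {G : Type u} [Group G] {V : Type v} [AddCommGroup V] [Module (ZMod 3) V]
    (ρ : Representation (ZMod 3) G V) (φ : V ≃ₗ[ZMod 3] H) (K : Subgroup G) : Prop :=
  ∀ r ∈ K, ∃ α γ : H, Quaternion.normSq α ≠ 0 ∧ Quaternion.normSq γ ≠ 0 ∧ LR ρ φ r α γ

/-- [X-FIN] finite facts in `H` (all checked by brute force over the 81 elements). -/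
structure FinFacts : Prop where
  sq_neg_one : ∀ γ : H, γ * γ = -1 → γ = qi ∨ γ = -qi ∨ γ = qj ∨ γ = -qj ∨ γ = qk ∨ γ = -qk
  cube : ∀ β : H, β * β * β = 1 → (β - 1) * (β - 1) = 0
  cube_norm : ∀ β : H, β * β * β = 1 → Quaternion.normSq β = 1
  mix₁ : ∀ s β : H, s * s = 1 → s ≠ 1 → s ≠ -1 → β * β * β = 1 → β ≠ 1 →
    (β * β * s * β * s) * (β * β * s * β * s) ≠ 1 ∧ (β * β * s * β * s) * (β * β * s * β * s) ≠ -1
  mix₂ : ∀ s β : H, s * s = 1 → s ≠ 1 → s ≠ -1 → β * β * β = 1 → β ≠ 1 →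
    (s * (β * β * s * β)) * (s * (β * β * s * β)) ≠ 1 ∧ (s * (β * β * s * β)) * (s * (β * β * s * β)) ≠ -1
  mix₃ : ∀ s β : H, s * s = 1 → s ≠ 1 → s ≠ -1 → β * β * β = 1 → β ≠ 1 →
    (β * s * β * β * s) * (β * s * β * β * s) ≠ 1 ∧ (β * s * β * β * s) * (β * s * β * β * s) ≠ -1
  mix₄ : ∀ s β : H, s * s = 1 → s ≠ 1 → s ≠ -1 → β * β * β = 1 → β ≠ 1 →
    (s * (β * s * β * β)) * (s * (β * s * β * β)) ≠ 1 ∧ (s * (β * s * β * β)) * (s * (β * s * β * β)) ≠ -1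
  q8_of_order : ∀ α : H, Quaternion.normSq α = 1 → ∀ m : ℕ, Nat.Coprime m 3 →
    (α ^ m = 1 ∨ α ^ m = -1) → Q8 α
  center : ∀ c : H, (∀ h : H, c * h = h * c) → c = 0 ∨ c = 1 ∨ c = -1
  q8_of_comm : ∀ α : H, Quaternion.normSq α ≠ 0 → (α * qi = qi * α ∨ α * qi = -(qi * α)) →
    (α * qj = qj * α ∨ α * qj = -(qj * α)) → Q8 α
  unit : ∀ α : H, Quaternion.normSq α ≠ 0 → ∃ α' : H, α * α' = 1 ∧ α' * α = 1
  norm_pm : ∀ α : H, Quaternion.normSq α ≠ 0 → Quaternion.normSq α = 1 ∨ Quaternion.normSq α = -1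
  skolem : ∀ p p' : H, p * p = -1 → p' * p' = -1 → p * p' = -(p' * p) →
    ∃ α : H, Quaternion.normSq α ≠ 0 ∧ α * qi = p * α ∧ α * qj = p' * α

/-- [X-FIN] -/
def PkgXFin : Prop := FinFacts

/-- [X-Q8] (X1), pure group theory: the elements `x, y`. -/
def PkgXQ8 : Prop :=
  ∀ {G : Type u} [Group G] [Finite G] (N : Subgroup G) (z b : G),
    z ∈ N → z ≠ 1 → z * z = 1 → (∀ g : G, z * g = g * z) →
    (∀ x ∈ N, x * x = 1 ∨ x * x = z) →
    (∀ x ∈ N, ∀ y ∈ N, x * y = y * x ∨ x * y = z * y * x) →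
    (∀ x ∈ N, (∀ y ∈ N, x * y = y * x) → x = 1 ∨ x = z) →
    b ^ 3 = 1 → (∀ x ∈ N, b * x * b⁻¹ ∈ N) → (∃ x ∈ N, b * x ≠ x * b) →
    ∃ x ∈ N, ∃ y ∈ N, x * x = z ∧ y * y = z ∧ y * x = z * x * y ∧ b * x * b⁻¹ = y ∧
      (b * y * b⁻¹ = x * y ∨ b * y * b⁻¹ = z * x * y)

/-- [X-DIM] (X2): `|V| = 81`. -/
def PkgXDim : Prop :=
  ∀ {G : Type u} [Group G] [Finite G] {V : Type v} [AddCommGroup V] [Module (ZMod 3) V] [Finite V]
    (ρ : Representation (ZMod 3) G V) (R : Subgroup G) (b : G) (Q : Subgroup G),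
    Setup ρ R b Q → Frame ρ b Q → ∀ x y z : G, (∀ v : V, ρ z v = -v) →
      x * x = z → y * y = z → y * x = z * x * y → b * x * b⁻¹ = y → Nat.card V = 81

/-- [X-MODEL] (X3), pure linear algebra: the quaternion model. -/
def PkgXModel : Prop :=
  ∀ {V : Type v} [AddCommGroup V] [Module (ZMod 3) V] [Finite V] (I J : V →ₗ[ZMod 3] V),
    Nat.card V = 81 → (∀ v, I (I v) = -v) → (∀ v, J (J v) = -v) → (∀ v, J (I v) = -I (J v)) →
    ∃ φ : V ≃ₗ[ZMod 3] H, (∀ v, φ (I v) = qi * φ v) ∧ (∀ v, φ (J v) = qj * φ v)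

/-- [X-NORM] (X4), pure, inside `H`: a bijective linear map carrying `L_i, L_j` to `L_p, L_p'`
(`p, p' ∈ Q8`) is `h ↦ α h γ` with units `α, γ`. -/
def PkgXNorm : Prop :=
  ∀ (T T' : H →ₗ[ZMod 3] H) (p p' : H), (∀ h, T (T' h) = h) → (∀ h, T' (T h) = h) →
    Q8 p → Q8 p' → (∀ h, T (qi * h) = p * T h) → (∀ h, T (qj * h) = p' * T h) →
    ∃ α γ : H, Quaternion.normSq α ≠ 0 ∧ Quaternion.normSq γ ≠ 0 ∧ ∀ h, T h = α * h * γ

/-- [X-B] (X6). -/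
def PkgXB : Prop :=
  PkgXNorm → FinFacts →
  ∀ {G : Type u} [Group G] [Finite G] {V : Type v} [AddCommGroup V] [Module (ZMod 3) V] [Finite V]
    (ρ : Representation (ZMod 3) G V) (R : Subgroup G) (b : G) (Q : Subgroup G)
    (N : Subgroup G) (z x y : G) (φ : V ≃ₗ[ZMod 3] H),
    Ctx ρ R b Q N z x y φ → BFacts ρ φ b

/-- [X-N] (X7): the elements of `N` are `L_p R_γ` with `p, γ ∈ Q8`. -/
def PkgXN : Prop :=
  PkgXNorm → FinFacts →
  ∀ {G : Type u} [Group G] [Finite G] {V : Type v} [AddCommGroup V] [Module (ZMod 3) V] [Finite V]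
    (ρ : Representation (ZMod 3) G V) (R : Subgroup G) (b : G) (Q : Subgroup G)
    (N : Subgroup G) (z x y : G) (φ : V ≃ₗ[ZMod 3] H),
    Ctx ρ R b Q N z x y φ → BFacts ρ φ b → QFacts ρ φ N

/-- [X-R1] (X8): the elements of `R` are `L_α R_γ` with units `α, γ`. -/
def PkgXR1 : Prop :=
  PkgXNorm → FinFacts →
  ∀ {G : Type u} [Group G] [Finite G] {V : Type v} [AddCommGroup V] [Module (ZMod 3) V] [Finite V]
    (ρ : Representation (ZMod 3) G V) (R : Subgroup G) (b : G) (Q : Subgroup G)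
    (N : Subgroup G) (z x y : G) (φ : V ≃ₗ[ZMod 3] H),
    Ctx ρ R b Q N z x y φ → BFacts ρ φ b → QFacts ρ φ N → UFacts ρ φ R

/-- [X-R2] (X9): the elements of `R` are `L_p R_γ` with `p, γ ∈ Q8`. -/
def PkgXR2 : Prop :=
  FinFacts →
  ∀ {G : Type u} [Group G] [Finite G] {V : Type v} [AddCommGroup V] [Module (ZMod 3) V] [Finite V]
    (ρ : Representation (ZMod 3) G V) (R : Subgroup G) (b : G) (Q : Subgroup G)
    (N : Subgroup G) (z x y : G) (φ : V ≃ₗ[ZMod 3] H),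
    Ctx ρ R b Q N z x y φ → BFacts ρ φ b → UFacts ρ φ R → QFacts ρ φ R

/-- [X-R3] (X10): `R` has order 32 and is of extraspecial type. -/
def PkgXR3 : Prop :=
  FinFacts →
  ∀ {G : Type u} [Group G] [Finite G] {V : Type v} [AddCommGroup V] [Module (ZMod 3) V] [Finite V]
    (ρ : Representation (ZMod 3) G V) (R : Subgroup G) (b : G) (Q : Subgroup G)
    (N : Subgroup G) (z x y : G) (φ : V ≃ₗ[ZMod 3] H),
    Ctx ρ R b Q N z x y φ → QFacts ρ φ R → Extra ρ R z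

end Cfsg.Agent.Lib.Helper65.S4415
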