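import Mathlib
import Cfsg.Agent.Lib.Helper78.S4415.Defs
import Cfsg.Agent.Lib.Helper65.S4415.ExtDefs

/-!
# S4415, package [EXT]: assembly from the sub-packages
-/

set_option autoImplicit false

namespace Cfsg.Agent.Lib.Helper65.S4415

open Cfsg.Agent.Lib.Helper78.S4415

universe u v

/-- assembly of [EXT] from its sub-packages -/
theorem pkgExt_of (hQ8 : PkgXQ8.{u}) (hDim : PkgXDim.{u, v}) (hModel : PkgXModel.{v})
    (hNorm : PkgXNorm) (hFin : PkgXFin) (hB : PkgXB.{u, v}) (hN : PkgXN.{u, v})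
    (hR1 : PkgXR1.{u, v}) (hR2 : PkgXR2.{u, v}) (hR3 : PkgXR3.{u, v}) : PkgExt.{u, v} := by
  intro G _ _ V _ _ _ ρ R b Q hS hFr N z hNR hNn hE
  obtain ⟨hzN, hz1, hzneg, hsq, hcomm, hcen, hmove⟩ := hE
  have hρz : ρ z = -LinearMap.id := by
    ext v
    simp [hzneg v]
  have hzc : ∀ g : G, z * g = g * z := by
    intro g
    apply hS.faith
    rw [map_mul, map_mul, hρz]
    ext v
    simp
  have hzz : z * z = 1 := by
    apply hS.faith
    rw [map_mul, hρz, map_one]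
    ext v
    simp
  have hbN : ∀ x ∈ N, b * x * b⁻¹ ∈ N := fun x hx => hNn.conj_mem x hx b
  obtain ⟨x, hxN, y, hyN, hxx, hyy, hyx, hbx, hby⟩ :=
    hQ8 N z b hzN hz1 hzz hzc hsq hcomm hcen hS.b3 hbN hmove
  have hcard : Nat.card V = 81 := hDim ρ R b Q hS hFr x y z hzneg hxx hyy hyx hbx
  have hI : ∀ v, ρ x (ρ x v) = -v := by
    intro v
    have : ρ x (ρ x v) = ρ (x * x) v := by rw [map_mul]; rfl
    rw [this, hxx, hzneg]
  have hJ : ∀ v, ρ y (ρ y v) = -v := by
    intro v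
    have : ρ y (ρ y v) = ρ (y * y) v := by rw [map_mul]; rfl
    rw [this, hyy, hzneg]
  have hJI : ∀ v, ρ y (ρ x v) = -ρ x (ρ y v) := by
    intro v
    have h1 : ρ y (ρ x v) = ρ (y * x) v := by rw [map_mul]; rfl
    have h2 : ρ (z * x * y) v = ρ z (ρ x (ρ y v)) := by
      rw [map_mul, map_mul]; rfl
    rw [h1, hyx, h2, hzneg]
  obtain ⟨φ, hφx, hφy⟩ := hModel (ρ x) (ρ y) hcard hI hJ hJI
  have hC : Ctx ρ R b Q N z x y φ :=
    { setup := hS
      frame := hFr
      NR := hNR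
      Nnormal := hNn
      extra := ⟨hzN, hz1, hzneg, hsq, hcomm, hcen, hmove⟩
      zc := hzc
      zz := hzz
      xN := hxN
      yN := hyN
      xx := hxx
      yy := hyy
      yx := hyx
      bx := hbx
      bY := hby
      mx := hφx
      my := hφy }
  have hBf : BFacts ρ φ b := hB hNorm hFin ρ R b Q N z x y φ hC
  have hNf : QFacts ρ φ N := hN hNorm hFin ρ R b Q N z x y φ hC hBf
  have hUf : UFacts ρ φ R := hR1 hNorm hFin ρ R b Q N z x y φ hC hBf hNf
  have hRf : QFacts ρ φ R := hR2 hFin ρ R b Q N z x y φ hC hBf hUf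
  exact hR3 hFin ρ R b Q N z x y φ hC hRf

end Cfsg.Agent.Lib.Helper65.S4415
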