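import Mathlib
import Cfsg.Agent.Lib.Helper65.S4415.ExtDefs

/-!
# S4415, sub-package [X-FIN]: the finite facts in `H = ℍ[F_3]`

All facts are checked by evaluation over the 81 elements (`decide`), after choosing
coordinates.
-/

set_option autoImplicit false

namespace Cfsg.Agent.Lib.Helper65.S4415.XFin

open Cfsg.Agent.Lib.Helper65.S4415

/-- decidable equality on `H`, componentwise -/
local instance decEqH : DecidableEq H := fun x y =>
  decidable_of_iff (x.re = y.re ∧ x.imI = y.imI ∧ x.imJ = y.imJ ∧ x.imK = y.imK)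
    (Quaternion.ext_iff).symm

/-- the element with the given four coordinates -/
@[reducible] def mkH (a b c d : ZMod 3) : H := ⟨a, b, c, d⟩

/-- membership in `Q8` is decidable -/
local instance decQ8 (p : H) : Decidable (Q8 p) := by unfold Q8; infer_instance

set_option maxRecDepth 100000 in
theorem sq_neg_one_aux : ∀ a b c d : ZMod 3, mkH a b c d * mkH a b c d = -1 →
    mkH a b c d = qi ∨ mkH a b c d = -qi ∨ mkH a b c d = qj ∨ mkH a b c d = -qj ∨
      mkH a b c d = qk ∨ mkH a b c d = -qk := by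
  decide

theorem sq_neg_one (γ : H) (h : γ * γ = -1) :
    γ = qi ∨ γ = -qi ∨ γ = qj ∨ γ = -qj ∨ γ = qk ∨ γ = -qk := by
  obtain ⟨a, b, c, d⟩ := γ
  exact sq_neg_one_aux a b c d h

set_option maxRecDepth 100000 in
theorem cube_aux : ∀ a b c d : ZMod 3, mkH a b c d * mkH a b c d * mkH a b c d = 1 →
    (mkH a b c d - 1) * (mkH a b c d - 1) = 0 ∧ a * a + b * b + c * c + d * d = 1 := by
  decide

theorem normSq_mkH (a b c d : ZMod 3) :
    Quaternion.normSq (mkH a b c d) = a * a + b * b + c * c + d * d := by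
  rw [Quaternion.normSq_def']
  simp [pow_two]

theorem cube (β : H) (h : β * β * β = 1) : (β - 1) * (β - 1) = 0 := by
  obtain ⟨a, b, c, d⟩ := β
  exact (cube_aux a b c d h).1

theorem cube_norm (β : H) (h : β * β * β = 1) : Quaternion.normSq β = 1 := by
  obtain ⟨a, b, c, d⟩ := β
  have := (cube_aux a b c d h).2
  rw [← normSq_mkH] at this
  exact this

set_option maxRecDepth 100000 in
theorem mix₁_aux : ∀ a b c d : ZMod 3, mkH a b c d * mkH a b c d = 1 → mkH a b c d ≠ 1 →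
    mkH a b c d ≠ -1 → ∀ a' b' c' d' : ZMod 3,
    mkH a' b' c' d' * mkH a' b' c' d' * mkH a' b' c' d' = 1 → mkH a' b' c' d' ≠ 1 →
    (mkH a' b' c' d' * mkH a' b' c' d' * mkH a b c d * mkH a' b' c' d' * mkH a b c d) *
      (mkH a' b' c' d' * mkH a' b' c' d' * mkH a b c d * mkH a' b' c' d' * mkH a b c d) ≠ 1 ∧
    (mkH a' b' c' d' * mkH a' b' c' d' * mkH a b c d * mkH a' b' c' d' * mkH a b c d) *
      (mkH a' b' c' d' * mkH a' b' c' d' * mkH a b c d * mkH a' b' c' d' * mkH a b c d) ≠ -1 := by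
  decide +kernel

set_option maxRecDepth 100000 in
theorem mix₂_aux : ∀ a b c d : ZMod 3, mkH a b c d * mkH a b c d = 1 → mkH a b c d ≠ 1 →
    mkH a b c d ≠ -1 → ∀ a' b' c' d' : ZMod 3,
    mkH a' b' c' d' * mkH a' b' c' d' * mkH a' b' c' d' = 1 → mkH a' b' c' d' ≠ 1 →
    (mkH a b c d * (mkH a' b' c' d' * mkH a' b' c' d' * mkH a b c d * mkH a' b' c' d')) *
      (mkH a b c d * (mkH a' b' c' d' * mkH a' b' c' d' * mkH a b c d * mkH a' b' c' d')) ≠ 1 ∧
    (mkH a b c d * (mkH a' b' c' d' * mkH a' b' c' d' * mkH a b c d * mkH a' b' c' d')) *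
      (mkH a b c d * (mkH a' b' c' d' * mkH a' b' c' d' * mkH a b c d * mkH a' b' c' d')) ≠ -1 := by
  decide +kernel

set_option maxRecDepth 100000 in
theorem mix₃_aux : ∀ a b c d : ZMod 3, mkH a b c d * mkH a b c d = 1 → mkH a b c d ≠ 1 →
    mkH a b c d ≠ -1 → ∀ a' b' c' d' : ZMod 3,
    mkH a' b' c' d' * mkH a' b' c' d' * mkH a' b' c' d' = 1 → mkH a' b' c' d' ≠ 1 →
    (mkH a' b' c' d' * mkH a b c d * mkH a' b' c' d' * mkH a' b' c' d' * mkH a b c d) *
      (mkH a' b' c' d' * mkH a b c d * mkH a' b' c' d' * mkH a' b' c' d' * mkH a b c d) ≠ 1 ∧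
    (mkH a' b' c' d' * mkH a b c d * mkH a' b' c' d' * mkH a' b' c' d' * mkH a b c d) *
      (mkH a' b' c' d' * mkH a b c d * mkH a' b' c' d' * mkH a' b' c' d' * mkH a b c d) ≠ -1 := by
  decide +kernel

set_option maxRecDepth 100000 in
theorem mix₄_aux : ∀ a b c d : ZMod 3, mkH a b c d * mkH a b c d = 1 → mkH a b c d ≠ 1 →
    mkH a b c d ≠ -1 → ∀ a' b' c' d' : ZMod 3,
    mkH a' b' c' d' * mkH a' b' c' d' * mkH a' b' c' d' = 1 → mkH a' b' c' d' ≠ 1 →
    (mkH a b c d * (mkH a' b' c' d' * mkH a b c d * mkH a' b' c' d' * mkH a' b' c' d')) *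
      (mkH a b c d * (mkH a' b' c' d' * mkH a b c d * mkH a' b' c' d' * mkH a' b' c' d')) ≠ 1 ∧
    (mkH a b c d * (mkH a' b' c' d' * mkH a b c d * mkH a' b' c' d' * mkH a' b' c' d')) *
      (mkH a b c d * (mkH a' b' c' d' * mkH a b c d * mkH a' b' c' d' * mkH a' b' c' d')) ≠ -1 := by
  decide +kernel

set_option maxRecDepth 100000 in
theorem order_aux : ∀ a b c d : ZMod 3, a * a + b * b + c * c + d * d = 1 →
    Q8 (mkH a b c d) ∨
      ((mkH a b c d * mkH a b c d * mkH a b c d = 1 ∨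
          mkH a b c d * mkH a b c d * mkH a b c d = -1) ∧ mkH a b c d * mkH a b c d ≠ 1) := by
  decide +kernel

theorem q8_of_order (α : H) (hn : Quaternion.normSq α = 1) (m : ℕ) (hm : Nat.Coprime m 3)
    (h : α ^ m = 1 ∨ α ^ m = -1) : Q8 α := by
  obtain ⟨a, b, c, d⟩ := α
  have hn' : a * a + b * b + c * c + d * d = 1 := by rw [← normSq_mkH]; exact hn
  rcases order_aux a b c d hn' with hq | ⟨h3, h2⟩
  · exact hq
  · exfalso
    set α : H := mkH a b c d with hα
    have h6 : α ^ 6 = 1 := by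
      have e : α ^ 6 = (α * α * α) * (α * α * α) := by noncomm_ring
      rw [e]
      rcases h3 with h3 | h3 <;> rw [h3] <;> simp
    have h2m : α ^ (2 * m) = 1 := by
      rw [mul_comm, pow_mul]
      rcases h with h | h <;> rw [h] <;> simp
    have hg : Nat.gcd (2 * m) 6 = 2 := by
      have : (6 : ℕ) = 2 * 3 := rfl
      rw [this, Nat.gcd_mul_left, hm.gcd_eq_one]
    have hd : orderOf α ∣ 2 := by
      rw [← hg]
      exact Nat.dvd_gcd (orderOf_dvd_of_pow_eq_one h2m) (orderOf_dvd_of_pow_eq_one h6)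
    have : α ^ 2 = 1 := orderOf_dvd_iff_pow_eq_one.mp hd
    exact h2 (by rw [← pow_two]; exact this)

set_option maxRecDepth 100000 in
theorem center_aux : ∀ a b c d : ZMod 3, mkH a b c d * qi = qi * mkH a b c d →
    mkH a b c d * qj = qj * mkH a b c d →
    mkH a b c d = 0 ∨ mkH a b c d = 1 ∨ mkH a b c d = -1 := by
  decide +kernel

theorem center (c : H) (h : ∀ h : H, c * h = h * c) : c = 0 ∨ c = 1 ∨ c = -1 := by
  have h1 := h qi
  have h2 := h qj
  obtain ⟨a, b, c, d⟩ := c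
  exact center_aux a b c d h1 h2

set_option maxRecDepth 100000 in
theorem comm_aux : ∀ a b c d : ZMod 3, a * a + b * b + c * c + d * d ≠ 0 →
    (mkH a b c d * qi = qi * mkH a b c d ∨ mkH a b c d * qi = -(qi * mkH a b c d)) →
    (mkH a b c d * qj = qj * mkH a b c d ∨ mkH a b c d * qj = -(qj * mkH a b c d)) →
    Q8 (mkH a b c d) := by
  decide +kernel

theorem q8_of_comm (α : H) (hn : Quaternion.normSq α ≠ 0)
    (h1 : α * qi = qi * α ∨ α * qi = -(qi * α)) (h2 : α * qj = qj * α ∨ α * qj = -(qj * α)) :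
    Q8 α := by
  obtain ⟨a, b, c, d⟩ := α
  have hn' : a * a + b * b + c * c + d * d ≠ 0 := by rw [← normSq_mkH]; exact hn
  exact comm_aux a b c d hn' h1 h2

set_option maxRecDepth 100000 in
theorem unit_aux : ∀ a b c d : ZMod 3, a * a + b * b + c * c + d * d ≠ 0 →
    ∃ a' b' c' d' : ZMod 3, mkH a b c d * mkH a' b' c' d' = 1 ∧
      mkH a' b' c' d' * mkH a b c d = 1 := by
  decide +kernel

theorem unit (α : H) (hn : Quaternion.normSq α ≠ 0) : ∃ α' : H, α * α' = 1 ∧ α' * α = 1 := by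
  obtain ⟨a, b, c, d⟩ := α
  have hn' : a * a + b * b + c * c + d * d ≠ 0 := by rw [← normSq_mkH]; exact hn
  obtain ⟨a', b', c', d', h1, h2⟩ := unit_aux a b c d hn'
  exact ⟨mkH a' b' c' d', h1, h2⟩

theorem zmod3_pm : ∀ t : ZMod 3, t ≠ 0 → t = 1 ∨ t = -1 := by decide

theorem norm_pm (α : H) (hn : Quaternion.normSq α ≠ 0) :
    Quaternion.normSq α = 1 ∨ Quaternion.normSq α = -1 := zmod3_pm _ hn

set_option maxRecDepth 100000 in
theorem skolem_aux : ∀ a b c d : ZMod 3, mkH a b c d * mkH a b c d = -1 →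
    ∀ a' b' c' d' : ZMod 3, mkH a' b' c' d' * mkH a' b' c' d' = -1 →
    mkH a b c d * mkH a' b' c' d' = -(mkH a' b' c' d' * mkH a b c d) →
    ∃ e f g h : ZMod 3, e * e + f * f + g * g + h * h ≠ 0 ∧
      mkH e f g h * qi = mkH a b c d * mkH e f g h ∧
      mkH e f g h * qj = mkH a' b' c' d' * mkH e f g h := by
  decide +kernel

theorem skolem (p p' : H) (h1 : p * p = -1) (h2 : p' * p' = -1) (h3 : p * p' = -(p' * p)) :
    ∃ α : H, Quaternion.normSq α ≠ 0 ∧ α * qi = p * α ∧ α * qj = p' * α := by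
  obtain ⟨a, b, c, d⟩ := p
  obtain ⟨a', b', c', d'⟩ := p'
  obtain ⟨e, f, g, h, hn, e1, e2⟩ := skolem_aux a b c d h1 a' b' c' d' h2 h3
  refine ⟨mkH e f g h, ?_, e1, e2⟩
  rw [normSq_mkH]; exact hn

end Cfsg.Agent.Lib.Helper65.S4415.XFin

namespace Cfsg.Agent.Lib.Helper65.S4415

open XFin in
/-- **[X-FIN]** -/
theorem pkgXFin : PkgXFin where
  sq_neg_one := sq_neg_one
  cube := cube
  cube_norm := cube_norm
  mix₁ := fun s β h1 h2 h3 h4 h5 => by
    obtain ⟨a, b, c, d⟩ := s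
    obtain ⟨a', b', c', d'⟩ := β
    exact mix₁_aux a b c d h1 h2 h3 a' b' c' d' h4 h5
  mix₂ := fun s β h1 h2 h3 h4 h5 => by
    obtain ⟨a, b, c, d⟩ := s
    obtain ⟨a', b', c', d'⟩ := β
    exact mix₂_aux a b c d h1 h2 h3 a' b' c' d' h4 h5
  mix₃ := fun s β h1 h2 h3 h4 h5 => by
    obtain ⟨a, b, c, d⟩ := s
    obtain ⟨a', b', c', d'⟩ := β
    exact mix₃_aux a b c d h1 h2 h3 a' b' c' d' h4 h5
  mix₄ := fun s β h1 h2 h3 h4 h5 => by
    obtain ⟨a, b, c, d⟩ := s
    obtain ⟨a', b', c', d'⟩ := β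
    exact mix₄_aux a b c d h1 h2 h3 a' b' c' d' h4 h5
  q8_of_order := q8_of_order
  center := center
  q8_of_comm := q8_of_comm
  unit := unit
  norm_pm := norm_pm
  skolem := skolem

end Cfsg.Agent.Lib.Helper65.S4415
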