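import Mathlib
import Cfsg.Agent.Lib.Helper65.S4415.ExtMain
import Cfsg.Agent.Lib.Helper65.S4415.XFin
import Cfsg.Agent.Lib.Helper45.S4415.XQ8
import Cfsg.Agent.Lib.Helper87.S4415.XDim
import Cfsg.Agent.Lib.Helper87.S4415.XModel
import Cfsg.Agent.Lib.Helper43.S4415.XNorm
import Cfsg.Agent.Lib.Helper61.S4415.XB
import Cfsg.Agent.Lib.Helper61.S4415.XN
import Cfsg.Agent.Lib.Helper64.S4415.XR1
import Cfsg.Agent.Lib.Helper3.S4415.XR2
import Cfsg.Agent.Lib.Helper48.S4415.XR3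

/-!
# S4415, package [EXT]: final assembly
-/

set_option autoImplicit false

namespace Cfsg.Agent.Lib.Helper65.S4415

universe u v

/-- **[EXT]** the extraspecial case of S4415. -/
theorem pkgExt : Cfsg.Agent.Lib.Helper78.S4415.PkgExt.{u, v} :=
  pkgExt_of.{u, v} Cfsg.Agent.Lib.Helper45.S4415.pkgXQ8.{u}
    Cfsg.Agent.Lib.Helper87.S4415.pkgXDim.{u, v}
    Cfsg.Agent.Lib.Helper87.S4415.pkgXModel.{v}
    Cfsg.Agent.Lib.Helper43.S4415.pkgXNorm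
    pkgXFin
    Cfsg.Agent.Lib.Helper61.S4415.pkgXB.{u, v}
    Cfsg.Agent.Lib.Helper61.S4415.pkgXN.{u, v}
    Cfsg.Agent.Lib.Helper64.S4415.pkgXR1.{u, v}
    Cfsg.Agent.Lib.Helper3.S4415.pkgXR2.{u, v}
    Cfsg.Agent.Lib.Helper48.S4415.pkgXR3.{u, v}

end Cfsg.Agent.Lib.Helper65.S4415
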